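import Cfsg.Agent.H355.PQ.Defs
import Cfsg.Agent.H289.Eight.Pair

/-!
# S4612, row of `PSL_n`: orbits on pairs of subspaces (helper16, task 5183)

`card_orbits_Gr` : `SL(V)` has `j + 1` orbits on the pairs of subspaces of dimensions `j ≤ k`, `2 k ≤ dim V`.
-/

set_option autoImplicit false
set_option linter.unusedSectionVars false
set_option linter.unusedVariables false

open Cfsg Module MulAction

namespace Cfsg.Agent.H16.PQL

open Cfsg.Agent.H355.PQ

universe u v

/-- counting orbits by an invariant -/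
theorem card_orbits_of {G X : Type*} [Group G] [MulAction G X] {k : ℕ} (F : X → Fin k) (r : Fin k → X)
    (hinv : ∀ (g : G) x, F (g • x) = F x) (hr : ∀ i, F (r i) = i)
    (hex : ∀ x y, F x = F y → ∃ g : G, g • x = y) : Nat.card (orbitRel.Quotient G X) = k := by
  let f : orbitRel.Quotient G X → Fin k := Quotient.lift F (by
    rintro a b ⟨g, hg⟩
    rw [← hg]
    exact hinv g b)
  have hf : Function.Bijective f := by
    constructor
    · intro a b
      refine Quotient.inductionOn₂ a b fun x y hxy => ?_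
      obtain ⟨g, hg⟩ := hex y x (show F y = F x from (show F x = F y from hxy).symm)
      exact Quotient.sound ⟨g, hg⟩
    · intro i
      exact ⟨Quotient.mk _ (r i), hr i⟩
  rw [Nat.card_congr (Equiv.ofBijective f hf), Nat.card_eq_fintype_card, Fintype.card_fin]

variable {F : Type u} [Field F] {V : Type v} [AddCommGroup V] [Module F V] [FiniteDimensional F V]

theorem span_scaled {ι : Type*} {u v : ι → V} (h : ∀ i, ∃ c : F, c ≠ 0 ∧ u i = c • v i) :
    Submodule.span F (Set.range u) = Submodule.span F (Set.range v) := by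
  apply le_antisymm
  · rw [Submodule.span_le]
    rintro _ ⟨i, rfl⟩
    obtain ⟨c, -, hc⟩ := h i
    rw [hc]
    exact Submodule.smul_mem _ _ (Submodule.subset_span ⟨i, rfl⟩)
  · rw [Submodule.span_le]
    rintro _ ⟨i, rfl⟩
    obtain ⟨c, hc0, hc⟩ := h i
    have : v i = c⁻¹ • u i := by rw [hc, smul_smul, inv_mul_cancel₀ hc0, one_smul]
    rw [this]
    exact Submodule.smul_mem _ _ (Submodule.subset_span ⟨i, rfl⟩)

/-- `SL(V)` is transitive on independent families up to scalars -/
theorem exists_sl_scaled {ι : Type*} [Finite ι] {u v : ι → V} (hu : LinearIndependent F u)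
    (hv : LinearIndependent F v) :
    ∃ g : SpecialLinearGroup F V, ∀ i, ∃ c : F, c ≠ 0 ∧ g.1 (u i) = c • v i := by
  rcases isEmpty_or_nonempty ι with h | ⟨⟨i0⟩⟩
  · exact ⟨1, fun i => h.elim i⟩
  · obtain ⟨g, c, h0, h1⟩ := Cfsg.Agent.H105.exists_sl hu hv i0
    refine ⟨g, fun i => ?_⟩
    by_cases hi : i = i0
    · subst hi
      exact ⟨c, c.ne_zero, h0⟩
    · exact ⟨1, one_ne_zero, by rw [h1 i hi, one_smul]⟩

/-- **transitivity on pairs of subspaces** -/
theorem exists_pair_sl {W U W' U' : Submodule F V} (h1 : finrank F W = finrank F W') (h2 : finrank F U = finrank F U')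
    (h3 : finrank F ↥(W ⊓ U) = finrank F ↥(W' ⊓ U')) :
    ∃ g : SpecialLinearGroup F V, W.map (g.1 : V →ₗ[F] V) = W' ∧ U.map (g.1 : V →ₗ[F] V) = U' := by
  have ha := Submodule.finrank_mono (R := F) (inf_le_left : W ⊓ U ≤ W)
  have hc := Submodule.finrank_mono (R := F) (inf_le_right : W ⊓ U ≤ U)
  obtain ⟨u, hu, e1, e2⟩ := Cfsg.Agent.H289.Eight.exists_adapted W U (a := finrank F ↥(W ⊓ U))
    (b := finrank F W - finrank F ↥(W ⊓ U)) (c := finrank F U - finrank F ↥(W ⊓ U)) rfl (by omega) (by omega)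
  obtain ⟨v, hv, e3, e4⟩ := Cfsg.Agent.H289.Eight.exists_adapted W' U' (a := finrank F ↥(W ⊓ U))
    (b := finrank F W - finrank F ↥(W ⊓ U)) (c := finrank F U - finrank F ↥(W ⊓ U)) h3.symm (by omega) (by omega)
  obtain ⟨g, hg⟩ := exists_sl_scaled hu hv
  refine ⟨g, ?_, ?_⟩
  · rw [e3]
    conv_lhs => rw [e1]
    rw [Submodule.map_span, ← Set.range_comp]
    exact span_scaled fun i => hg _
  · rw [e4]
    conv_lhs => rw [e2]
    rw [Submodule.map_span, ← Set.range_comp]
    exact span_scaled fun i => hg _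

/-- pairs with a given intersection -/
theorem exists_inf {j k i : ℕ} (hi : i ≤ j) (hjk : j ≤ k) (hk : 2 * k ≤ finrank F V) :
    ∃ U W : Submodule F V, finrank F U = j ∧ finrank F W = k ∧ finrank F ↥(U ⊓ W) = i := by
  let b := Module.finBasis F V
  have hb : ∀ {m : ℕ} (f : Fin m → Fin (finrank F V)), Function.Injective f →
      finrank F (Submodule.span F (Set.range fun x => b (f x))) = m := by
    intro m f hf
    have h := finrank_span_eq_card (b.linearIndependent.comp f hf)
    rw [Fintype.card_fin] at h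
    exact h
  let f1 : Fin j → Fin (finrank F V) := fun x => ⟨x.1, by omega⟩
  let f2 : Fin k → Fin (finrank F V) := fun x => ⟨j - i + x.1, by omega⟩
  let f3 : Fin (j - i + k) → Fin (finrank F V) := fun x => ⟨x.1, by omega⟩
  have h1 : Function.Injective f1 := fun x y h => Fin.ext (Fin.mk.inj_iff.1 h)
  have h2 : Function.Injective f2 := fun x y h => Fin.ext (by
    have := congrArg Fin.val h
    simp only [f2] at this
    omega)
  have h3 : Function.Injective f3 := fun x y h => Fin.ext (Fin.mk.inj_iff.1 h)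
  refine ⟨Submodule.span F (Set.range fun x => b (f1 x)), Submodule.span F (Set.range fun x => b (f2 x)), hb f1 h1,
    hb f2 h2, ?_⟩
  have h4 : Submodule.span F (Set.range fun x => b (f1 x)) ⊔ Submodule.span F (Set.range fun x => b (f2 x)) =
      Submodule.span F (Set.range fun x => b (f3 x)) := by
    rw [← Submodule.span_union]
    congr 1
    ext v
    constructor
    · rintro (⟨x, rfl⟩ | ⟨x, rfl⟩)
      · exact ⟨⟨x.1, by omega⟩, rfl⟩
      · exact ⟨⟨j - i + x.1, by omega⟩, rfl⟩
    · rintro ⟨x, rfl⟩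
      by_cases hx : x.1 < j
      · exact Or.inl ⟨⟨x.1, hx⟩, rfl⟩
      · refine Or.inr ⟨⟨x.1 - (j - i), by omega⟩, ?_⟩
        simp only [f2, f3]
        congr 2
        omega
  have h5 := Submodule.finrank_sup_add_finrank_inf_eq (Submodule.span F (Set.range fun x => b (f1 x)))
    (Submodule.span F (Set.range fun x => b (f2 x)))
  rw [h4, hb f1 h1, hb f2 h2, hb f3 h3] at h5
  omega

/-- **orbits on pairs of subspaces** -/
theorem card_orbits_Gr {F : Type u} [Field F] [Finite F] {V : Type v} [AddCommGroup V] [Module F V]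
    [FiniteDimensional F V] {j k : ℕ} (hjk : j ≤ k) (hk : 2 * k ≤ finrank F V) (hV : 2 ≤ finrank F V) :
    Nat.card (orbitRel.Quotient (SpecialLinearGroup F V) (Gr F V j × Gr F V k)) = j + 1 := by
  have hlt : ∀ x : Gr F V j × Gr F V k, finrank F ↥(x.1.1 ⊓ x.2.1) < j + 1 := by
    intro x
    have h1 := Submodule.finrank_mono (R := F) (inf_le_left : x.1.1 ⊓ x.2.1 ≤ x.1.1)
    have h2 := x.1.2
    omega
  choose U W hU hW hUW using fun i : Fin (j + 1) =>
    exists_inf (F := F) (V := V) (i := i.1) (Nat.lt_succ_iff.1 i.2) hjk hk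
  refine card_orbits_of (fun x => ⟨finrank F ↥(x.1.1 ⊓ x.2.1), hlt x⟩) (fun i => (⟨U i, hU i⟩, ⟨W i, hW i⟩)) ?_ ?_ ?_
  · intro g x
    apply Fin.ext
    change finrank F ↥((x.1.1.map (g.1 : V →ₗ[F] V)) ⊓ (x.2.1.map (g.1 : V →ₗ[F] V))) = finrank F ↥(x.1.1 ⊓ x.2.1)
    rw [← Submodule.map_inf _ g.1.injective]
    exact LinearEquiv.finrank_map_eq g.1 _
  · intro i
    exact Fin.ext (hUW i)
  · intro x y hxy
    obtain ⟨g, h1, h2⟩ := exists_pair_sl (W := x.1.1) (U := x.2.1) (W' := y.1.1) (U' := y.2.1)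
      (x.1.2.trans y.1.2.symm) (x.2.2.trans y.2.2.symm) (congrArg Fin.val hxy)
    exact ⟨g, Prod.ext (Subtype.ext h1) (Subtype.ext h2)⟩

end Cfsg.Agent.H16.PQL
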